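import Cfsg.Agent.Lib.Geometric.LinearSmallTypes

/-!
The geometric types, other than the symplectic type normalisers, of maximal subgroups of the
special linear group in dimension eight.
-/

set_option autoImplicit false

namespace CfsgLib.Geometric.SLEight

open CfsgLib.Geometric

variable {F : Type*} [Field F] [Fintype F]

/-- Stabilisers of subspaces. -/
theorem item1 : ∀ W : Submodule F (Fin 8 → F), W ≠ ⊥ → W ≠ ⊤ → Cfsg.Geo.IsMaximalIn (Cfsg.Geo.specialLinear (Fin 8) F) (Cfsg.Geo.subspaceStabilizer W ⊓ Cfsg.Geo.specialLinear (Fin 8) F) := by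
  classical
  exact fun W h0 h1 => subspaceStabilizer_isMaximalIn h0 h1

lemma monomial_case (hq : 5 ≤ Fintype.card F) :
    (2 : F) ≠ 0 ∨ ∃ γ : Fˣ, γ ^ Fintype.card (Fin 8) ≠ 1 := by
  classical
  by_contra h
  push Not at h
  obtain ⟨x, hx⟩ := IsCyclic.exists_generator (α := Fˣ)
  have ho : orderOf x = Fintype.card F - 1 := by
    rw [orderOf_eq_card_of_forall_mem_zpowers hx, Nat.card_units, Nat.card_eq_fintype_card]
  have hd := orderOf_dvd_of_pow_eq_one (h.2 x)
  rw [ho, Fintype.card_fin] at hd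
  have : CharP F 2 := CharTwo.of_one_ne_zero_of_two_eq_zero one_ne_zero h.1
  obtain ⟨⟨k, hk0⟩, -, hk⟩ := FiniteField.card F 2
  change Fintype.card F = 2 ^ k at hk
  have hle := Nat.le_of_dvd (by omega) hd
  rw [hk] at hd hle hq
  have hk4 : k < 4 := by
    by_contra hk'
    have := Nat.pow_le_pow_right (show 1 ≤ 2 by norm_num) (not_lt.mp hk')
    omega
  interval_cases k <;> revert hd hle hq <;> decide

/-- Stabilisers of decompositions into lines. -/
theorem item2 : 5 ≤ Fintype.card F → ∀ D : Fin 8 → Submodule F (Fin 8 → F), Cfsg.Geo.IsMDecomposition 1 D → Cfsg.Geo.IsMaximalIn (Cfsg.Geo.specialLinear (Fin 8) F) (Cfsg.Geo.decompositionStabilizer D ⊓ Cfsg.Geo.specialLinear (Fin 8) F) := by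
  classical
  exact fun hq D hD => Decomp.decompStab_isMaximalIn_of_one_small hD rfl hq
    (by rw [Fintype.card_fin]; omega) (monomial_case hq)

/-- Stabilisers of decompositions into planes. -/
theorem item3 : 3 ≤ Fintype.card F → ∀ D : Fin 4 → Submodule F (Fin 8 → F), Cfsg.Geo.IsMDecomposition 2 D → Cfsg.Geo.IsMaximalIn (Cfsg.Geo.specialLinear (Fin 8) F) (Cfsg.Geo.decompositionStabilizer D ⊓ Cfsg.Geo.specialLinear (Fin 8) F) := by
  classical
  exact fun hq D hD =>
    Decomp.decompStab_isMaximalIn_of_two_le hD (by omega) (by omega) (fun h => by omega)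

/-- Stabilisers of decompositions into two solids. -/
theorem item4 : ∀ D : Fin 2 → Submodule F (Fin 8 → F), Cfsg.Geo.IsMDecomposition 4 D → Cfsg.Geo.IsMaximalIn (Cfsg.Geo.specialLinear (Fin 8) F) (Cfsg.Geo.decompositionStabilizer D ⊓ Cfsg.Geo.specialLinear (Fin 8) F) := by
  classical
  exact fun D hD =>
    Decomp.decompStab_isMaximalIn_of_two_le hD (by omega) (by omega) (fun h => by omega)

/-- Normalisers of quadratic extension fields. -/
theorem item5 : ∀ K : Subalgebra F (Matrix (Fin 8) (Fin 8) F), Cfsg.Geo.IsFieldSubalgebra 2 K → Cfsg.Geo.IsMaximalIn (Cfsg.Geo.specialLinear (Fin 8) F) (Cfsg.Geo.subalgebraNormalizer K ⊓ Cfsg.Geo.specialLinear (Fin 8) F) := by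
  classical
  exact fun K hK =>
    (Cfsg.Agent.S5886.result 8 2 (by norm_num) (by norm_num) (by norm_num) K hK).2

/-- Stabilisers of tensor decompositions. -/
theorem item6 : 3 ≤ Fintype.card F → ∀ (e : Fin 8 ≃ Fin 2 × Fin 4) (P : Matrix.GeneralLinearGroup (Fin 8) F), Cfsg.Geo.IsMaximalIn (Cfsg.Geo.specialLinear (Fin 8) F) (Cfsg.Geo.tensorProductSubgroup 2 4 e P ⊓ Cfsg.Geo.specialLinear (Fin 8) F) := by
  classical
  exact fun hq e P =>
    LTensor.isMaximalIn (by omega) (by omega) (Or.inr (SmallLinear.exists_ne_zero_one hq)) e P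

/-- Subfield groups. -/
theorem item7 : ∀ (F₀ : Subfield F) (r : ℕ) (P : Matrix.GeneralLinearGroup (Fin 8) F), r.Prime → Fintype.card F = Nat.card F₀ ^ r → Cfsg.Geo.IsMaximalIn (Cfsg.Geo.specialLinear (Fin 8) F) (Cfsg.Geo.subfieldSubgroup F₀ P ⊓ Cfsg.Geo.specialLinear (Fin 8) F) := by
  classical
  exact fun F₀ r P hr hc =>
    linearSubfield_isMaximalIn' (by simp) F₀ hr (by rwa [Nat.card_eq_fintype_card]) P

/-- Orthogonal similitude groups. -/
theorem item9 : Odd (Fintype.card F) → ∀ Q : (Fin 8 → F) → F, Cfsg.Geo.IsNondegenerateQuadraticForm Q → Cfsg.Geo.IsMaximalIn (Cfsg.Geo.specialLinear (Fin 8) F) (Cfsg.Geo.quadSimilarityGroup Q ⊓ Cfsg.Geo.specialLinear (Fin 8) F) := by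
  classical
  exact fun ho Q hQ => SmallLinear.quadSimilarity_isMaximalIn 8 (by norm_num) ho Q hQ

/-- Symplectic similitude groups. -/
theorem item10 : ∀ f : (Fin 8 → F) → (Fin 8 → F) → F, Cfsg.Geo.IsSymplecticForm f → Cfsg.Geo.IsMaximalIn (Cfsg.Geo.specialLinear (Fin 8) F) (Cfsg.Geo.similarityGroup f ⊓ Cfsg.Geo.specialLinear (Fin 8) F) := by
  classical
  exact fun f hf => Symp.similarityGroup_isMaximalIn hf (by simp)

/-- Unitary similitude groups. -/
theorem item11 : ∀ (σ : F ≃+* F) (f : (Fin 8 → F) → (Fin 8 → F) → F), Cfsg.Geo.IsUnitaryForm σ f → Cfsg.Geo.IsMaximalIn (Cfsg.Geo.specialLinear (Fin 8) F) (Cfsg.Geo.similarityGroup f ⊓ Cfsg.Geo.specialLinear (Fin 8) F) := by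
  classical
  exact fun σ f hf => SmallLinear.unitary (by norm_num) hf

end CfsgLib.Geometric.SLEight
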